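import Mathlib
import Cfsg.Agent.Lib.Helper22.Iso.Defs
import Cfsg.Agent.Lib.Helper22.Comp
import Cfsg.Agent.Lib.Helper22.Layer

/-!
# ISO (S3044 + S3045), package [ABS-A3] (helper82): `S` is transitive on the components
-/

set_option autoImplicit false

namespace Cfsg.Agent.Lib.Helper82.Iso

open Cfsg.Agent.Lib.Helper22.Iso Cfsg.Agent.Lib.Helper22

universe u

section orb

variable {X Γ : Type u} [Group X] [Group Γ]

theorem map_map_sigma (σ : Γ →* MulAut X) (a b : Γ) (K : Subgroup X) :
    (K.map (σ a).toMonoidHom).map (σ b).toMonoidHom = K.map (σ (b * a)).toMonoidHom := by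
  have e : (σ b).toMonoidHom.comp (σ a).toMonoidHom = (σ (b * a)).toMonoidHom := by
    ext y
    simp [map_mul, MulAut.mul_apply]
  rw [Subgroup.map_map, e]

theorem map_sigma_one (σ : Γ →* MulAut X) (K : Subgroup X) :
    K.map (σ 1).toMonoidHom = K := by
  have e : (σ 1).toMonoidHom = MonoidHom.id X := by
    ext y
    simp
  rw [e, Subgroup.map_id]

/-- The subgroup generated by the `A`-images of `K`. -/
def orbSup (σ : Γ →* MulAut X) (A : Subgroup Γ) (K : Subgroup X) : Subgroup X :=
  ⨆ a : A, K.map (σ (a : Γ)).toMonoidHom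

theorem le_orbSup (σ : Γ →* MulAut X) (A : Subgroup Γ) (K : Subgroup X) :
    K ≤ orbSup σ A K := by
  have h := le_iSup (fun a : A => K.map (σ (a : Γ)).toMonoidHom) 1
  have e : K.map (σ ((1 : A) : Γ)).toMonoidHom = K := map_sigma_one σ K
  simp only [e] at h
  exact h

theorem orbSup_inv (σ : Γ →* MulAut X) (A : Subgroup Γ) (K : Subgroup X) :
    ∀ b ∈ A, ∀ x ∈ orbSup σ A K, σ b x ∈ orbSup σ A K := by
  intro b hb x hx
  have h1 : (orbSup σ A K).map (σ b).toMonoidHom ≤ orbSup σ A K := by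
    unfold orbSup
    rw [Subgroup.map_iSup]
    apply iSup_le
    intro a
    rw [map_map_sigma]
    exact le_iSup (fun a : A => K.map (σ (a : Γ)).toMonoidHom) (⟨b, hb⟩ * a)
  exact h1 (Subgroup.mem_map_of_mem _ hx)

theorem orbSup_normal (σ : Γ →* MulAut X) (A : Subgroup Γ) (K : Subgroup X)
    (hn : ∀ a : A, (K.map (σ (a : Γ)).toMonoidHom).Normal) : (orbSup σ A K).Normal := by
  constructor
  intro x hx g
  have h1 : (orbSup σ A K).map (MulAut.conj g).toMonoidHom ≤ orbSup σ A K := by
    unfold orbSup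
    rw [Subgroup.map_iSup]
    apply iSup_le
    intro a
    refine le_trans ?_ (le_iSup (fun a : A => K.map (σ (a : Γ)).toMonoidHom) a)
    rintro _ ⟨y, hy, rfl⟩
    exact (hn a).conj_mem y hy g
  have h2 := h1 (Subgroup.mem_map_of_mem _ hx)
  simpa using h2

theorem orbSup_le_centralizer [Finite X] (σ : Γ →* MulAut X) (A : Subgroup Γ)
    {K K' : Subgroup X} (hK : Cfsg.IsComponent K) (hK' : Cfsg.IsComponent K')
    (hne : ∀ a ∈ A, K' ≠ K.map (σ a).toMonoidHom) :
    orbSup σ A K ≤ Subgroup.centralizer (K' : Set X) := by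
  unfold orbSup
  apply iSup_le
  intro a
  have hc := isComponent_map_equiv (σ (a : Γ)) hK
  have h := components_commute hc hK' (fun h => hne a a.2 h.symm)
  rwa [Subgroup.commutator_eq_bot_iff_le_centralizer] at h

/-- The fixed points of an automorphism. -/
def fixSub (f : MulAut X) : Subgroup X where
  carrier := {x | f x = x}
  mul_mem' := by
    intro a b ha hb
    simp only [Set.mem_setOf_eq] at ha hb ⊢
    rw [map_mul, ha, hb]
  one_mem' := by simp
  inv_mem' := by
    intro a ha
    simp only [Set.mem_setOf_eq] at ha ⊢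
    rw [map_inv, ha]

theorem mem_fixSub {f : MulAut X} {x : X} : x ∈ fixSub f ↔ f x = x := Iff.rfl

end orb

/-- [ABS-A3]. -/
theorem pkgAbsA3 : PkgAbsA3.{u} := by
  intro X Γ _ _ _ _ p _ σ Sg Qg Lg Lb Tb hA hnn hlay K₁ K₂ hK₁ hK₂
  classical
  have hnorm : ∀ K : Subgroup X, Cfsg.IsComponent K → K.Normal := by
    intro K hK
    have h := layer_le_normalizer_component hK
    rw [hlay, top_le_iff] at h
    exact Subgroup.normalizer_eq_top_iff.1 h
  have hnab : ∀ K : Subgroup X, Cfsg.IsComponent K →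
      ¬ K ≤ Subgroup.centralizer (K : Set X) := by
    intro K hK hle
    have h := (Subgroup.commutator_eq_bot_iff_le_centralizer).2 hle
    rw [IsComponent.perfect hK] at h
    exact IsComponent.ne_bot hK h
  have hmapc : ∀ (g : Γ) (K : Subgroup X), Cfsg.IsComponent K →
      Cfsg.IsComponent (K.map (σ g).toMonoidHom) := fun g K hK => isComponent_map_equiv (σ g) hK
  have htop : ∀ H : Subgroup X, (∀ K, Cfsg.IsComponent K → K ≤ H) → H = ⊤ := by
    intro H hH
    rw [eq_top_iff, ← hlay]
    exact layer_le_iff.2 hH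
  -- (i) `Lg` is transitive on the components
  have hLtrans : ∀ K K' : Subgroup X, Cfsg.IsComponent K → Cfsg.IsComponent K' →
      ∃ l ∈ Lg, K' = K.map (σ l).toMonoidHom := by
    intro K K' hK hK'
    by_contra hno
    push Not at hno
    have hN : orbSup σ Lg K = ⊤ := by
      by_contra hne
      have h := (hA.key _ (orbSup_normal σ Lg K (fun a => hnorm _ (hmapc _ K hK)))
        (orbSup_inv σ Lg K) hne).1
      apply hnab K hK
      exact le_trans (le_orbSup σ Lg K) (le_trans h (Subgroup.center_le_centralizer _))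
    have hc := orbSup_le_centralizer σ Lg hK hK' hno
    rw [hN] at hc
    exact hnab K' hK' (le_trans le_top hc)
  by_contra hno
  push Not at hno
  have hno' : ∀ s ∈ Sg, K₁ ≠ K₂.map (σ s).toMonoidHom := by
    intro s hs h
    apply hno s⁻¹ (Sg.inv_mem hs)
    rw [h, map_map_sigma, inv_mul_cancel, map_sigma_one]
  have hW₁n : (orbSup σ Sg K₁).Normal :=
    orbSup_normal σ Sg K₁ (fun a => hnorm _ (hmapc _ K₁ hK₁))
  have hW₂n : (orbSup σ Sg K₂).Normal :=
    orbSup_normal σ Sg K₂ (fun a => hnorm _ (hmapc _ K₂ hK₂))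
  have hcent : orbSup σ Sg K₁ ⊓ orbSup σ Sg K₂ ≤ Subgroup.center X := by
    intro w hw
    have hall : Subgroup.centralizer ({w} : Set X) = ⊤ := by
      apply htop
      intro K' hK'
      have hwK' : w ∈ Subgroup.centralizer (K' : Set X) := by
        by_cases h1 : ∃ s ∈ Sg, K' = K₁.map (σ s).toMonoidHom
        · obtain ⟨s, hs, rfl⟩ := h1
          apply orbSup_le_centralizer σ Sg hK₂ hK' ?_ hw.2
          intro s' hs' h
          apply hno' (s⁻¹ * s') (Sg.mul_mem (Sg.inv_mem hs) hs')
          have h2 := congrArg (fun H : Subgroup X => H.map (σ s⁻¹).toMonoidHom) h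
          simp only [map_map_sigma] at h2
          rw [inv_mul_cancel, map_sigma_one] at h2
          exact h2
        · push Not at h1
          exact orbSup_le_centralizer σ Sg hK₁ hK' h1 hw.1
      intro k hk
      rw [Subgroup.mem_centralizer_iff]
      intro y hy
      rw [Set.mem_singleton_iff] at hy
      subst hy
      exact ((Subgroup.mem_centralizer_iff.1 hwK') k hk).symm
    rw [Subgroup.mem_center_iff]
    intro g
    have hg : g ∈ Subgroup.centralizer ({w} : Set X) := by
      rw [hall]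
      trivial
    exact (Subgroup.mem_centralizer_iff.1 hg w rfl).symm
  have hfixK : ∃ K₀ : Subgroup X, Cfsg.IsComponent K₀ ∧ ∀ q ∈ Qg, ∀ x ∈ K₀, σ q x = x := by
    rcases hA.invn _ hW₁n (orbSup_inv σ Sg K₁) with h1 | h1
    · rcases hA.invn _ hW₂n (orbSup_inv σ Sg K₂) with h2 | h2
      · exfalso
        apply hnn
        exact isNilpotent_of_comm (hA.Tnc (le_trans (le_inf h1 h2) hcent))
      · exact ⟨K₂, hK₂, fun q hq x hx => h2 q hq x (le_orbSup σ Sg K₂ hx)⟩
    · exact ⟨K₁, hK₁, fun q hq x hx => h1 q hq x (le_orbSup σ Sg K₁ hx)⟩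
  obtain ⟨K₀, hK₀, hfix⟩ := hfixK
  apply hA.nc
  intro q hq x
  have hF : fixSub (σ q) = ⊤ := by
    apply htop
    intro K' hK' y hy
    obtain ⟨l, hl, rfl⟩ := hLtrans K₀ K' hK₀ hK'
    obtain ⟨x0, hx0, rfl⟩ := hy
    rw [mem_fixSub]
    have hq' : l⁻¹ * q * l ∈ Qg := by
      have h := hA.LQ l⁻¹ (Lg.inv_mem hl) q hq
      rwa [inv_inv] at h
    have h1 := hfix _ hq' x0 hx0
    have h2 : σ q (σ l x0) = σ l (σ (l⁻¹ * q * l) x0) := by
      simp [map_mul, MulAut.mul_apply]
    change σ q (σ l x0) = σ l x0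
    rw [h2, h1]
  have hx : x ∈ fixSub (σ q) := by
    rw [hF]
    trivial
  exact hx

end Cfsg.Agent.Lib.Helper82.Iso
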