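import Mathlib
import Cfsg.Agent.Lib.Helper22.Iso.Defs
import Cfsg.Agent.Lib.Helper55.Cores

/-!
# ISO (S3044 + S3045), package [ABS-B] (helper82): the nilpotent case
-/

set_option autoImplicit false

namespace Cfsg.Agent.Lib.Helper82.Iso

open Cfsg.Agent.Lib.Helper22.Iso

universe u

section tw

variable {X Γ : Type u} [Group X] [Group Γ]

/-- The subgroup generated by the twisted commutators `x * (σ q x)⁻¹`, `q ∈ Qg`. -/
def twV (σ : Γ →* MulAut X) (Qg : Subgroup Γ) : Subgroup X :=
  Subgroup.closure {c : X | ∃ x : X, ∃ q ∈ Qg, c = x * (σ q x)⁻¹}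

theorem twV_mem (σ : Γ →* MulAut X) (Qg : Subgroup Γ) (x : X) {q : Γ} (hq : q ∈ Qg) :
    x * (σ q x)⁻¹ ∈ twV σ Qg :=
  Subgroup.subset_closure ⟨x, q, hq, rfl⟩

theorem twV_normal (σ : Γ →* MulAut X) (Qg : Subgroup Γ) : (twV σ Qg).Normal := by
  constructor
  intro c hc y
  unfold twV at hc
  induction hc using Subgroup.closure_induction with
  | mem c hc =>
    obtain ⟨x, q, hq, rfl⟩ := hc
    have e : y * (x * (σ q x)⁻¹) * y⁻¹ =
        (y * x * (σ q (y * x))⁻¹) * (y * (σ q y)⁻¹)⁻¹ := by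
      rw [map_mul]
      group
    rw [e]
    exact Subgroup.mul_mem _ (twV_mem σ Qg (y * x) hq) (Subgroup.inv_mem _ (twV_mem σ Qg y hq))
  | one => simp
  | mul a b _ _ ha hb =>
    have e : y * (a * b) * y⁻¹ = (y * a * y⁻¹) * (y * b * y⁻¹) := by group
    rw [e]
    exact Subgroup.mul_mem _ ha hb
  | inv a _ ha =>
    have e : y * a⁻¹ * y⁻¹ = (y * a * y⁻¹)⁻¹ := by group
    rw [e]
    exact Subgroup.inv_mem _ ha

theorem twV_inv (σ : Γ →* MulAut X) (Qg Lg : Subgroup Γ)
    (hLQ : ∀ l ∈ Lg, ∀ q ∈ Qg, l * q * l⁻¹ ∈ Qg) :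
    ∀ l ∈ Lg, ∀ c ∈ twV σ Qg, σ l c ∈ twV σ Qg := by
  intro l hl c hc
  unfold twV at hc
  induction hc using Subgroup.closure_induction with
  | mem c hc =>
    obtain ⟨x, q, hq, rfl⟩ := hc
    have e : σ l (x * (σ q x)⁻¹) = (σ l x) * (σ (l * q * l⁻¹) (σ l x))⁻¹ := by
      simp [map_mul, MulAut.mul_apply]
    rw [e]
    exact twV_mem σ Qg (σ l x) (hLQ l hl q hq)
  | one => simp
  | mul a b _ _ ha hb =>
    rw [map_mul]
    exact Subgroup.mul_mem _ ha hb
  | inv a _ ha =>
    rw [map_inv]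
    exact Subgroup.inv_mem _ ha

theorem char_inv (N : Subgroup X) [hN : N.Characteristic] (f : MulAut X) {x : X} (hx : x ∈ N) :
    f x ∈ N := by
  have h := (Subgroup.characteristic_iff_map_eq.1 hN) f
  rw [← h]
  exact Subgroup.mem_map_of_mem _ hx

end tw

/-- [ABS-B]. -/
theorem pkgAbsB : PkgAbsB.{u} := by
  intro X Γ _ _ _ _ p _ σ Sg Qg Lg Lb Tb hnil hA
  classical
  have hp : p.Prime := Fact.out
  have hX0 : Nat.card X ≠ 0 := Nat.card_pos.ne'
  -- (a) `p ∤ |X|`
  have hpX : ¬ p ∣ Nat.card X := by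
    intro hdvd
    obtain ⟨P⟩ : Nonempty (Sylow p X) := inferInstance
    have hPn : (P : Subgroup X).Normal :=
      Sylow.normal_of_normalizerCondition normalizerCondition_of_isNilpotent P
    have hle : (P : Subgroup X) ≤ Cfsg.pCore p X :=
      Cfsg.Agent.Lib.Helper55.le_pCore hPn P.isPGroup'
    rw [hA.pcore] at hle
    have hPb : (P : Subgroup X) = ⊥ := le_bot_iff.1 hle
    have h1 : Nat.card (P : Subgroup X) = 1 := by
      rw [hPb]
      exact Subgroup.card_bot
    rw [P.card_eq_multiplicity] at h1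
    have h2 : 0 < (Nat.card X).factorization p := hp.factorization_pos_of_dvd hX0 hdvd
    have h3 : 1 < p ^ (Nat.card X).factorization p := Nat.one_lt_pow h2.ne' hp.one_lt
    omega
  have hXnt : Nontrivial X := by
    by_contra h
    rw [not_nontrivial_iff_subsingleton] at h
    apply hA.Lne
    rw [eq_top_iff]
    intro x _
    rw [Subsingleton.elim x 1]
    exact Lb.one_mem
  -- (b) class ≤ 2
  have hcne : commutator X ≠ ⊤ := (IsSolvable.commutator_lt_top_of_nontrivial X).ne
  obtain ⟨hcz, hcL⟩ := hA.key (commutator X) inferInstance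
    (fun l _ x hx => char_inv (commutator X) (σ l) hx) hcne
  have hcm : ∀ x y : X, x * y * x⁻¹ * y⁻¹ ∈ commutator X := by
    intro x y
    rw [commutator_def]
    exact Subgroup.commutator_mem_commutator (Subgroup.mem_top x) (Subgroup.mem_top y)
  have hclass : Group.nilpotencyClass X ≤ 2 := by
    rw [← upperCentralSeries_eq_top_iff_nilpotencyClass_le, eq_top_iff]
    intro x _
    rw [mem_upperCentralSeries_succ_iff]
    intro y
    rw [upperCentralSeries_one]
    exact hcz (hcm x y)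
  -- (c) `X` is a `t`-group
  have ht : ∃ t : ℕ, t.Prime ∧ IsPGroup t X := by
    by_contra hno
    push_neg at hno
    apply hA.Lne
    have hdvd : Nat.card X ∣ Nat.card Lb := by
      rw [← Nat.factorization_le_iff_dvd hX0 Nat.card_pos.ne']
      intro t
      by_cases htp : t.Prime
      · haveI : Fact t.Prime := ⟨htp⟩
        obtain ⟨P⟩ : Nonempty (Sylow t X) := inferInstance
        have hPn : (P : Subgroup X).Normal :=
          Sylow.normal_of_normalizerCondition normalizerCondition_of_isNilpotent P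
        have hPne : (P : Subgroup X) ≠ ⊤ := by
          intro h
          apply hno t htp
          intro g
          obtain ⟨k, hk⟩ := P.isPGroup' ⟨g, by rw [h]; trivial⟩
          refine ⟨k, ?_⟩
          have := congrArg Subtype.val hk
          simpa using this
        haveI hPchar : (P : Subgroup X).Characteristic := Sylow.characteristic_of_normal P hPn
        have hPL : (P : Subgroup X) ≤ Lb :=
          (hA.key _ hPn (fun l _ x hx => char_inv (P : Subgroup X) (σ l) hx) hPne).2
        have h1 : Nat.card (P : Subgroup X) ∣ Nat.card Lb := Subgroup.card_dvd_of_le hPL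
        rw [P.card_eq_multiplicity] at h1
        exact (htp.pow_dvd_iff_le_factorization Nat.card_pos.ne').1 h1
      · rw [Nat.factorization_eq_zero_of_not_prime _ htp]
        exact Nat.zero_le _
    exact Subgroup.eq_top_of_card_eq _
      (Nat.dvd_antisymm (Subgroup.card_subgroup_dvd_card Lb) hdvd)
  obtain ⟨t, htp, htX⟩ := ht
  have htne : t ≠ p := by
    rintro rfl
    obtain ⟨n, hn⟩ := (IsPGroup.iff_card).1 htX
    have h1 : 1 < Nat.card X := Finite.one_lt_card
    rcases Nat.eq_zero_or_pos n with h0 | h0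
    · rw [h0, pow_zero] at hn
      omega
    · apply hpX
      rw [hn]
      exact dvd_pow_self _ h0.ne'
  -- (d) `V = ⊤`
  have hQfix : ∀ q ∈ Qg, ∀ x ∈ Lb, σ q x = x := hA.QL hpX
  have hV : twV σ Qg = ⊤ := by
    by_contra hne
    obtain ⟨_, hVL⟩ := hA.key _ (twV_normal σ Qg) (twV_inv σ Qg Lg hA.LQ) hne
    apply hA.nc
    intro q hq x
    obtain ⟨c, hc⟩ : ∃ c : X, c = x * (σ q x)⁻¹ := ⟨_, rfl⟩
    have hcV : c ∈ twV σ Qg := by
      rw [hc]
      exact twV_mem σ Qg x hq
    have hcfix : σ q c = c := hQfix q hq c (hVL hcV)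
    have h1 : σ q x = c⁻¹ * x := by
      rw [hc]
      group
    have hpow : ∀ n : ℕ, σ (q ^ n) x = c⁻¹ ^ n * x := by
      intro n
      induction n with
      | zero => simp
      | succ n ih =>
        rw [pow_succ', map_mul, MulAut.mul_apply, ih, map_mul, map_pow, map_inv, hcfix, h1,
          ← mul_assoc, ← pow_succ]
    obtain ⟨k, hk⟩ := hA.pS ⟨q, hA.QS hq⟩
    have hqk : q ^ p ^ k = 1 := by
      have := congrArg Subtype.val hk
      simpa using this
    have h2 := hpow (p ^ k)
    rw [hqk, map_one, MulAut.one_apply] at h2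
    have hck : c ^ p ^ k = 1 := by
      have h3 : c⁻¹ ^ p ^ k = 1 := by
        have := h2.symm
        exact mul_eq_right.1 this
      rw [inv_pow, inv_eq_one] at h3
      exact h3
    have ho : orderOf c ∣ p ^ k := orderOf_dvd_of_pow_eq_one hck
    obtain ⟨j, _, hoj⟩ := (Nat.dvd_prime_pow hp).1 ho
    have ho2 : orderOf c ∣ Nat.card X := orderOf_dvd_natCard c
    have hj0 : j = 0 := by
      by_contra hj
      apply hpX
      refine dvd_trans ?_ ho2
      rw [hoj]
      exact dvd_pow_self _ hj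
    rw [hj0, pow_zero, orderOf_eq_one_iff] at hoj
    rw [h1, hoj, inv_one, one_mul]
  -- (e) `Lb` is normal and central
  have hLn : Lb.Normal := by
    constructor
    intro l hl g
    have e : g * l * g⁻¹ = (g * l * g⁻¹ * l⁻¹) * l := by group
    rw [e]
    exact Lb.mul_mem (hcL (hcm g l)) hl
  have hLz : Lb ≤ Subgroup.center X := (hA.key Lb hLn hA.Linv hA.Lne).1
  -- (f) `Tb = ⊤`
  have hTb : Tb = ⊤ := by
    rw [eq_top_iff, ← hV, twV, Subgroup.closure_le]
    rintro c ⟨x, q, hq, rfl⟩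
    have hx : x ∈ ((Lb ⊔ Tb : Subgroup X) : Set X) := by
      rw [hA.LT]
      trivial
    haveI := hLn
    rw [Subgroup.normal_mul, Set.mem_mul] at hx
    obtain ⟨l, hl, t', ht', rfl⟩ := hx
    have hql : σ q l = l := hQfix q hq l hl
    have hlc : ∀ y : X, y * l = l * y := fun y => (Subgroup.mem_center_iff.1 (hLz hl)) y
    have e : l * t' * (σ q (l * t'))⁻¹ = t' * (σ q t')⁻¹ := by
      rw [map_mul, hql, mul_inv_rev]
      have h := hlc (t' * (σ q t')⁻¹)
      calc l * t' * ((σ q t')⁻¹ * l⁻¹) = (l * (t' * (σ q t')⁻¹)) * l⁻¹ := by group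
        _ = (t' * (σ q t')⁻¹ * l) * l⁻¹ := by rw [h]
        _ = t' * (σ q t')⁻¹ := by group
    rw [e]
    exact Tb.mul_mem ht' (Tb.inv_mem (hA.Tinv q (hA.QS hq) t' ht'))
  exact ⟨hTb, ⟨t, htp, htne, htX⟩, hclass⟩

end Cfsg.Agent.Lib.Helper82.Iso
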